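import Mathlib
import Cfsg.Agent.Lib.BlockOne.Count
import Cfsg.Agent.Lib.BlockOne.GroupPart
import Cfsg.Agent.Lib.BlockH.Rank

/-!
# The principal block with `k(B) = l(B) + 1`
-/

set_option linter.unusedSectionVars false
set_option autoImplicit false
set_option linter.style.haveILetI false

namespace Cfsg.Agent.Lib.BlockOne.Principal

open Cfsg MonoidAlgebra
open Cfsg.Agent.Lib.Blocks.Local Cfsg.Agent.Lib.Blocks.Central
open Cfsg.Agent.Lib.Blocks.Weak Cfsg.Agent.Lib.Blocks.Brauer Cfsg.Agent.Lib.Blocks.Induced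
open Cfsg.Agent.Lib.Blocks.PPart Cfsg.Agent.Lib.Blocks.Main Cfsg.Agent.Lib.Blocks.Third
open Cfsg.Agent.Lib.Blocks.General Cfsg.Agent.Lib.Blocks.Defect Cfsg.Agent.Lib.Blocks.Defect2
open Cfsg.Agent.Lib.Blocks.Sections Cfsg.Agent.Lib.Blocks.Heights Cfsg.Agent.Lib.Blocks.Inducing
open Cfsg.Agent.Lib.Blocks.NormSum Cfsg.Agent.Lib.Blocks.Subsection
open Cfsg.Agent.Lib.BlockT.SylowIn Cfsg.Agent.Lib.BlockP.Stable Cfsg.Agent.Lib.BlockP.Defect
open Cfsg.Agent.Lib.BlockOne.Count

universe u

variable {G : Type u} [Group G] [Fintype G] {M : Ideal AlgInt} {p : ℕ}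
  [hMp : M.IsPrime] [hp : Fact p.Prime] [Fintype (IrrCharacter G)]

/-- The defect groups of the principal block are the Sylow subgroups. -/
theorem exists_sylow_eq (hM : IsPModular p M) {D : Subgroup G}
    (hD : IsDefectGroup p M (principalBlock M G) D) : ∃ P : Sylow p G, (P : Subgroup G) = D := by
  have h1 := card_eq_pow_blockDefect hM (isPBlock_principal M) hD
  have h2 : minExp p (principalBlock M G) = 0 := by
    have h3 := minExp_le p (B := principalBlock M G) (χ := oneI G) (mem_blockOf_self (oneI G))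
    have h4 : charDegree ((oneI G : IrrCharacter G) : G → ℂ) = 1 := by
      have h5 := irr_one_eq (oneI G)
      rw [oneI_apply] at h5
      exact_mod_cast h5.symm
    rw [h4] at h3
    simpa using h3
  have h3 : blockDefect p (principalBlock M G) = (Nat.card G).factorization p := by
    change (Nat.card G).factorization p - minExp p (principalBlock M G) = _
    rw [h2, Nat.sub_zero]
  rw [h3] at h1
  exact ⟨Sylow.ofCard D h1, Sylow.coe_ofCard _ _⟩

/-- A `p`-element has a conjugate in a Sylow subgroup. -/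
theorem exists_conj_mem (P : Sylow p G) {g : G} (hg : ∃ k : ℕ, orderOf g = p ^ k) :
    ∃ h : G, h * g * h⁻¹ ∈ (P : Subgroup G) := by
  obtain ⟨k, hk⟩ := hg
  have hQ : IsPGroup p (Subgroup.zpowers g) := by
    rw [IsPGroup.iff_card]
    exact ⟨k, by rw [Nat.card_zpowers, hk]⟩
  obtain ⟨Q', hQ'⟩ := hQ.exists_le_sylow
  obtain ⟨h, hh⟩ := MulAction.exists_smul_eq G Q' P
  refine ⟨h, ?_⟩
  rw [← hh, Sylow.smul_def, Sylow.pointwise_smul_def]
  exact ⟨g, hQ' (Subgroup.mem_zpowers g), rfl⟩

/-- The principal block with `k = l + 1`. -/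
theorem isElementaryAbelian_principal (hM : IsPModular p M) {D : Subgroup G}
    (hD : IsDefectGroup p M (principalBlock M G) D)
    (hk : Nat.card (principalBlock M G) = blockRank p (principalBlock M G) + 1) :
    IsElementaryAbelian p D := by
  classical
  obtain ⟨P, rfl⟩ := exists_sylow_eq hM hD
  have hB₀ : IsPBlock M (principalBlock M G) := isPBlock_principal M
  have hconj : ∀ u ∈ (P : Subgroup G), ∀ v ∈ (P : Subgroup G), u ≠ 1 → v ≠ 1 → IsConj u v :=
    fun u hu v hv hu1 hv1 => isConj_of_card hM hB₀ hD hk hu hv hu1 hv1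
  refine Cfsg.Agent.Lib.BlockOne.GroupPart.isElementaryAbelian_of_conj P hconj ?_
  intro u hu hu1
  letI : Fintype (Subgroup.centralizer ({u} : Set G)) := Fintype.ofFinite _
  haveI := Cfsg.Agent.Lib.Char.Ortho.finite_irrCharacter (G := Subgroup.centralizer ({u} : Set G))
  letI : Fintype (IrrCharacter (Subgroup.centralizer ({u} : Set G))) := Fintype.ofFinite _
  have huo : ∃ k : ℕ, orderOf u = p ^ k := by
    obtain ⟨k, hk⟩ := (IsPGroup.iff_orderOf.mp P.2) ⟨u, hu⟩
    exact ⟨k, by rw [← hk, Subgroup.orderOf_mk]⟩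
  have hall : ∀ g : G, (∃ k : ℕ, orderOf g = p ^ k) → g ≠ 1 → IsConj g u := by
    intro g hg hg1
    obtain ⟨h, hh⟩ := exists_conj_mem P hg
    have h1 : h * g * h⁻¹ ≠ 1 := by
      intro h2
      apply hg1
      have h3 := congrArg (fun w => h⁻¹ * w * h) h2
      simpa [mul_assoc] using h3
    have h2 := hconj _ hh u hu h1 hu1
    exact (isConj_iff.mpr ⟨h, rfl⟩).trans h2
  have hc := card_eq_add_subT hM hB₀ huo hu1 hall
  have h1 : subT M p (principalBlock M G) u = 1 := by omega
  have hP := isBrauerPair_zpowers huo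
  have hset : {b : Set (IrrCharacter ↥(Subgroup.centralizer ({u} : Set G))) |
      IsInducedBlock M (Subgroup.centralizer ({u} : Set G)) b (principalBlock M G)} =
      {principalBlock M (Subgroup.centralizer ({u} : Set G))} := by
    ext b
    simp only [Set.mem_setOf_eq, Set.mem_singleton_iff]
    constructor
    · intro hb
      exact (third_main hM _ ⟨_, hb⟩).mp hb
    · rintro rfl
      have hdef := exists_induced hM hP
        (b := principalBlock M (Subgroup.centralizer ({u} : Set G))) (isPBlock_principal M)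
      exact (third_main hM _ hdef).mpr rfl
  rw [subT, hset, finsum_mem_singleton] at h1
  exact Cfsg.Agent.Lib.BlockH.Rank.hasNormalPComplement_of_blockRank_eq_one hM h1

end Cfsg.Agent.Lib.BlockOne.Principal
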